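import Cfsg.Agent.Fus.Comp89.Slice
import Cfsg.Agent.Eq.Def_FusionComponents
import Cfsg.Agent.S5144

/-!
A central product of two systems is split along the two subgroups, with slices the two systems.
-/

set_option autoImplicit false

namespace CfsgLib.Comp89

open Cfsg Cfsg.FusionSystem CfsgLib.Fus
open CfsgLib.Fus.PPrimeExist (mem_sup_commuting)

variable {Ω : Type*} [Group Ω] {S S₁ S₂ : Subgroup Ω} [Finite S] {F : Cfsg.FusionSystem S}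
  {F₁ : Cfsg.FusionSystem S₁} {F₂ : Cfsg.FusionSystem S₂}

/-- The conclusion: split along `S₁`, `S₂`, and the first slice is `F₁`. -/
theorem split_of_centralProduct (hc : IsCentralProductOf F₁ F₂ F) (h₁ : F₁.IsSubsystemOf F)
    (h₂ : F₂.IsSubsystemOf F) :
    S₁ ≤ S ∧ S₂ ≤ S ∧ ∃ hs : Split S₁ S₂ F,
      (∀ P, (slice hs.amb).Hom P = F₁.Hom P) ∧ ∀ P, (slice hs.symm.amb).Hom P = F₂.Hom P := by
  obtain ⟨D₀, hD, Z, θ, hZ, -, -, hl, hr, hf⟩ := hc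
  obtain ⟨hZle, hker, hrange, hhom⟩ := hf
  have h₁S : S₁ ≤ S := hom_le F (h₁ S₁ (subtype_mem F₁ le_rfl))
  have h₂S : S₂ ≤ S := hom_le F (h₂ S₂ (subtype_mem F₂ le_rfl))
  have : Finite S₁ := finite_of_le h₁S
  have : Finite S₂ := finite_of_le h₂S
  have : Finite ↥(S₁.prod S₂) := Finite.of_injective
    (fun w => ((⟨(w : Ω × Ω).1, w.2.1⟩ : S₁), (⟨(w : Ω × Ω).2, w.2.2⟩ : S₂))) fun u v huv =>
      Subtype.ext (Prod.ext (congrArg (fun t => (t.1 : Ω)) huv) (congrArg (fun t => (t.2 : Ω)) huv))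
  have m₁ : ∀ {a : Ω}, a ∈ S₁ → ((a, 1) : Ω × Ω) ∈ S₁.prod S₂ := fun ha =>
    Subgroup.mem_prod.2 ⟨ha, S₂.one_mem⟩
  have m₂ : ∀ {b : Ω}, b ∈ S₂ → ((1, b) : Ω × Ω) ∈ S₁.prod S₂ := fun hb =>
    Subgroup.mem_prod.2 ⟨S₁.one_mem, hb⟩
  have hth : ∀ x : ↥(S₁.prod S₂), θ x = (x : Ω × Ω).1 * (x : Ω × Ω).2 := fun x => by
    obtain ⟨⟨a, b⟩, ha, hb⟩ := x
    show θ ⟨(a, b), ha, hb⟩ = a * b
    have e : (⟨(a, b), ha, hb⟩ : ↥(S₁.prod S₂)) =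
        ⟨(a, 1), m₁ ha⟩ * ⟨(1, b), m₂ hb⟩ :=
      Subtype.ext (Prod.ext (mul_one a).symm (one_mul b).symm)
    rw [e, map_mul, hl a, hr b]
  have hcomm : ∀ a ∈ S₁, ∀ b ∈ S₂, a * b = b * a := fun a ha b hb => by
    have e : (⟨(a, 1), m₁ ha⟩ : ↥(S₁.prod S₂)) * ⟨(1, b), m₂ hb⟩ =
        ⟨(1, b), m₂ hb⟩ * ⟨(a, 1), m₁ ha⟩ :=
      Subtype.ext (Prod.ext ((mul_one a).trans (one_mul a).symm)
        ((one_mul b).trans (mul_one b).symm))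
    have h := congrArg θ e
    rwa [map_mul, map_mul, hl a, hr b] at h
  have hsplit : ∀ x ∈ S, ∃ a ∈ S₁, ∃ b ∈ S₂, x = a * b := fun x hx => by
    obtain ⟨w, rfl⟩ := hrange.symm.le hx
    exact ⟨_, w.2.1, _, w.2.2, hth w⟩
  -- the preimage, and the central elements
  have hpre : ∀ {P : Subgroup Ω} {a b : Ω}, a ∈ S₁ → b ∈ S₂ → a * b ∈ P →
      ((a, b) : Ω × Ω) ∈ preimageAlong θ P := fun {P a b} ha hb hab =>
    ⟨⟨(a, b), ha, hb⟩, by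
      show θ _ ∈ P
      rw [hth]
      exact hab, rfl⟩
  have hpre' : ∀ {P : Subgroup Ω} {w : Ω × Ω}, w ∈ preimageAlong θ P →
      w.1 ∈ S₁ ∧ w.2 ∈ S₂ ∧ w.1 * w.2 ∈ P := by
    rintro P _ ⟨w, hw, rfl⟩
    exact ⟨w.2.1, w.2.2, hth w ▸ hw⟩
  have hzZ : ∀ z, z ∈ S₁ → z ∈ S₂ → ((z, z⁻¹) : Ω × Ω) ∈ Z := fun z hz₁ hz₂ => by
    refine (hker ⟨(z, z⁻¹), hz₁, S₂.inv_mem hz₂⟩).1 ?_
    rw [hth]
    exact mul_inv_cancel z
  have hfixD : ∀ {M : Subgroup (Ω × Ω)} {φ : M →* Ω × Ω}, φ ∈ D₀.Hom M → ∀ w : M,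
      (w : Ω × Ω) ∈ Z → φ w = w := by
    intro M φ hφ w hw
    obtain ⟨ψ, -, e₁, e₂⟩ := (Cfsg.Agent.S5144.result D₀).2 M φ hφ
    rw [← e₁ w]
    exact e₂ ⟨w, hZ hw⟩
  -- every map splits
  have parts : ∀ {P : Subgroup Ω} {φ' : P →* Ω}, φ' ∈ F.Hom P →
      ∃ (φ₁ : ↥((preimageAlong θ P).map (MonoidHom.fst Ω Ω)) →* Ω)
        (φ₂ : ↥((preimageAlong θ P).map (MonoidHom.snd Ω Ω)) →* Ω),
        φ₁ ∈ F₁.Hom _ ∧ φ₂ ∈ F₂.Hom _ ∧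
        (∀ (a : ↥((preimageAlong θ P).map (MonoidHom.fst Ω Ω))), (a : Ω) ∈ S₂ → φ₁ a = a) ∧
        (∀ (b : ↥((preimageAlong θ P).map (MonoidHom.snd Ω Ω))), (b : Ω) ∈ S₁ → φ₂ b = b) ∧
        ∀ (a b : Ω) (hab : a * b ∈ P) (ha : a ∈ S₁) (hb : b ∈ S₂),
          φ' ⟨a * b, hab⟩ = φ₁ ⟨a, (a, b), hpre ha hb hab, rfl⟩ *
            φ₂ ⟨b, (a, b), hpre ha hb hab, rfl⟩ := by
    intro P φ' hφ'
    obtain ⟨hP, φ, hφ, hM, hφS, hM', hi⟩ := (hhom P φ').1 hφ'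
    obtain ⟨-, φ₁, hφ₁, φ₂, hφ₂, he⟩ := (hD _ φ).1 hφ
    refine ⟨φ₁, φ₂, hφ₁, hφ₂, ?_, ?_, fun a b hab ha hb => ?_⟩
    · rintro ⟨a, ⟨a', b'⟩, hw, rfl⟩ hz
      obtain ⟨ha', -, -⟩ := hpre' hw
      have hz' : ((a', a'⁻¹) : Ω × Ω) ∈ preimageAlong θ P :=
        hpre ha' (S₂.inv_mem hz) (by rw [mul_inv_cancel]; exact P.one_mem)
      have h1 := hfixD hφ ⟨_, hz'⟩ (hzZ a' ha' hz)
      rw [he ⟨_, hz'⟩ ⟨_, hz', rfl⟩ ⟨_, hz', rfl⟩] at h1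
      exact congrArg Prod.fst h1
    · rintro ⟨b, ⟨a', b'⟩, hw, rfl⟩ hz
      obtain ⟨-, hb', -⟩ := hpre' hw
      have hz' : ((b'⁻¹, b') : Ω × Ω) ∈ preimageAlong θ P :=
        hpre (S₁.inv_mem hz) hb' (by rw [inv_mul_cancel]; exact P.one_mem)
      have h0 : ((b'⁻¹, b') : Ω × Ω) ∈ Z := by
        have h := hzZ b'⁻¹ (S₁.inv_mem hz) (S₂.inv_mem hb')
        rwa [inv_inv] at h
      have h1 := hfixD hφ ⟨_, hz'⟩ h0
      rw [he ⟨_, hz'⟩ ⟨_, hz', rfl⟩ ⟨_, hz', rfl⟩] at h1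
      exact congrArg Prod.snd h1
    · have hw := hpre ha hb hab
      have h1 := hi ⟨(a, b), hw⟩
      refine (congrArg φ' (Subtype.ext (hth ⟨(a, b), ha, hb⟩).symm)).trans (h1.trans ((hth _).trans ?_))
      show (φ ⟨(a, b), hw⟩).1 * (φ ⟨(a, b), hw⟩).2 = _
      rw [he ⟨(a, b), hw⟩ ⟨_, hw, rfl⟩ ⟨_, hw, rfl⟩]
  -- one factor strongly closed, and its maps
  have hone₁ : ∀ {P : Subgroup Ω}, P ≤ S₁ → ∀ {φ' : P →* Ω}, φ' ∈ F.Hom P → φ' ∈ F₁.Hom P := by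
    intro P hP φ' hφ'
    obtain ⟨φ₁, φ₂, hφ₁, -, -, -, he⟩ := parts hφ'
    have hle : P ≤ (preimageAlong θ P).map (MonoidHom.fst Ω Ω) := fun x hx =>
      ⟨(x, 1), hpre (hP hx) S₂.one_mem (by rw [mul_one]; exact hx), rfl⟩
    refine hom_restrict F₁ hφ₁ hle fun x => ?_
    have h1 := he x 1 (by rw [mul_one]; exact x.2) (hP x.2) S₂.one_mem
    rw [show (⟨(x : Ω) * 1, by rw [mul_one]; exact x.2⟩ : P) = x from Subtype.ext (mul_one _)] at h1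
    exact h1.trans ((congrArg (φ₁ _ * ·) (map_one φ₂)).trans (mul_one _))
  have hone₂ : ∀ {P : Subgroup Ω}, P ≤ S₂ → ∀ {φ' : P →* Ω}, φ' ∈ F.Hom P → φ' ∈ F₂.Hom P := by
    intro P hP φ' hφ'
    obtain ⟨φ₁, φ₂, -, hφ₂, -, -, he⟩ := parts hφ'
    have hle : P ≤ (preimageAlong θ P).map (MonoidHom.snd Ω Ω) := fun x hx =>
      ⟨(1, x), hpre S₁.one_mem (hP hx) (by rw [one_mul]; exact hx), rfl⟩
    refine hom_restrict F₂ hφ₂ hle fun x => ?_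
    have h1 := he 1 x (by rw [one_mul]; exact x.2) S₁.one_mem (hP x.2)
    rw [show (⟨(1 : Ω) * x, by rw [one_mul]; exact x.2⟩ : P) = x from Subtype.ext (one_mul _)] at h1
    exact h1.trans ((congrArg (· * φ₂ _) (map_one φ₁)).trans (one_mul _))
  have e₁ : S ⊓ S₁ = S₁ := inf_eq_right.2 h₁S
  have e₂ : S ⊓ S₂ = S₂ := inf_eq_right.2 h₂S
  have hcl₁ : F.StronglyClosed (S ⊓ S₁) := e₁.symm ▸
    ⟨h₁S, fun R hR φ hφ x => hom_mem F₁ (hone₁ hR hφ) x⟩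
  have hcl₂ : F.StronglyClosed (S ⊓ S₂) := e₂.symm ▸
    ⟨h₂S, fun R hR φ hφ x => hom_mem F₂ (hone₂ hR hφ) x⟩
  have hamb : Amb S₁ S₂ F := ⟨hcl₁, hcl₂, hcomm⟩
  have hsup : (S ⊓ S₁) ⊔ (S ⊓ S₂) = S := by
    refine le_antisymm (sup_le inf_le_left inf_le_left) fun x hx => ?_
    obtain ⟨a, ha, b, hb, rfl⟩ := hsplit x hx
    exact Subgroup.mul_mem_sup ⟨h₁S ha, ha⟩ ⟨h₂S hb, hb⟩
  have hs : Split S₁ S₂ F := by
    refine ⟨hamb, hsup, fun P f hf => ?_⟩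
    rw [e₁, e₂]
    obtain ⟨φ', hφ', hfe⟩ := hf
    obtain ⟨φ₁, φ₂, hφ₁, hφ₂, hfix₁, hfix₂, he⟩ := parts hφ'
    have hP := hom_le F hφ'
    set P₁ := (preimageAlong θ P).map (MonoidHom.fst Ω Ω)
    set P₂ := (preimageAlong θ P).map (MonoidHom.snd Ω Ω)
    obtain ⟨g₁, hg₁, hg₁e⟩ := exists_mor (h₁ _ hφ₁)
    obtain ⟨g₂, hg₂, hg₂e⟩ := exists_mor (h₂ _ hφ₂)
    -- glue a half
    have glue : ∀ {A B : Subgroup Ω} {E : Cfsg.FusionSystem A} {Q : Subgroup Ω} {g : Ω → Ω},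
        (∀ a ∈ A, ∀ b ∈ B, a * b = b * a) → E.IsSubsystemOf F → Mor E Q g → B ≤ S →
        (∀ z ∈ Q, z ∈ B → g z = z) → (∀ z, z ∈ A → z ∈ B → z ∈ Q) →
        (∀ h : Ω → Ω, (∀ a ∈ Q, ∀ b ∈ B, h (a * b) = g a * b) → Mor F (Q ⊔ B) h) →
        ∃ h : Ω → Ω, Mor F (Q ⊔ B) h ∧ (∀ b ∈ B, h b = b) ∧ ∀ a ∈ Q, h a = g a := by
      classical
      intro A B E Q g hAB hE hg hB hgz hz hmk
      let h : Ω → Ω := fun y =>
        if hy : ∃ a ∈ Q, ∃ b ∈ B, y = a * b then g hy.choose * hy.choose_spec.2.choose else y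
      have hv : ∀ a ∈ Q, ∀ b ∈ B, h (a * b) = g a * b := by
        intro a ha b hb
        have hy : ∃ a' ∈ Q, ∃ b' ∈ B, a * b = a' * b' := ⟨a, ha, b, hb, rfl⟩
        show (if hy : _ then _ else _) = _
        rw [dif_pos hy]
        set a' := hy.choose
        have ha' : a' ∈ Q := hy.choose_spec.1
        set b' := hy.choose_spec.2.choose
        have hb' : b' ∈ B := hy.choose_spec.2.choose_spec.1
        have hab : a * b = a' * b' := hy.choose_spec.2.choose_spec.2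
        have hw : a⁻¹ * a' = b * b'⁻¹ := by
          have h1 : a' = a * b * b'⁻¹ := by rw [hab, mul_inv_cancel_right]
          rw [h1]
          group
        have hwQ : a⁻¹ * a' ∈ Q := Q.mul_mem (Q.inv_mem ha) ha'
        have hwB : a⁻¹ * a' ∈ B := hw ▸ B.mul_mem hb (B.inv_mem hb')
        have h1 : g a' = g a * (a⁻¹ * a') := by
          rw [← hgz _ hwQ hwB, ← hg.map_mul ha hwQ, mul_inv_cancel_left]
        rw [h1, hw, mul_assoc, mul_assoc, inv_mul_cancel, mul_one]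
      refine ⟨h, hmk h hv, fun b hb => ?_, fun a ha => ?_⟩
      · have h1 := hv 1 Q.one_mem b hb
        rw [one_mul] at h1
        rw [h1, show g 1 = 1 from ?_, one_mul]
        have h2 := hg.map_mul Q.one_mem Q.one_mem
        rw [mul_one] at h2
        exact left_eq_mul.1 h2
      · have h1 := hv a ha 1 B.one_mem
        rwa [mul_one, mul_one] at h1
    have hQ₁ : ∀ z, z ∈ S₁ → z ∈ S₂ → z ∈ P₁ := fun z hz₁ hz₂ =>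
      ⟨(z, z⁻¹), hpre hz₁ (S₂.inv_mem hz₂) (by rw [mul_inv_cancel]; exact P.one_mem), rfl⟩
    have hQ₂ : ∀ z, z ∈ S₂ → z ∈ S₁ → z ∈ P₂ := fun z hz₂ hz₁ =>
      ⟨(z⁻¹, z), hpre (S₁.inv_mem hz₁) hz₂ (by rw [inv_mul_cancel]; exact P.one_mem), rfl⟩
    have hP₁ : P₁ ≤ S₁ := hom_le F₁ hφ₁
    have hP₂ : P₂ ≤ S₂ := hom_le F₂ hφ₂
    -- maps of the direct product realise the glued maps
    have mk : ∀ {Q₁ Q₂ : Subgroup Ω} {ψ₁ : Q₁ →* Ω} {ψ₂ : Q₂ →* Ω} (h : Ω → Ω),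
        ψ₁ ∈ F₁.Hom Q₁ → ψ₂ ∈ F₂.Hom Q₂ →
        (∀ (a : Q₁) (b : Q₂), h ((a : Ω) * b) = ψ₁ a * ψ₂ b) →
        (∀ z, z ∈ S₁ → z ∈ S₂ → z ∈ Q₁) → (∀ z, z ∈ S₂ → z ∈ S₁ → z ∈ Q₂) →
        Mor F (Q₁ ⊔ Q₂) h := by
      intro Q₁ Q₂ ψ₁ ψ₂ h hψ₁ hψ₂ hh hz₁ hz₂
      have hQ₁S := hom_le F₁ hψ₁
      have hQ₂S := hom_le F₂ hψ₂
      have hQ : Q₁ ⊔ Q₂ ≤ S := sup_le (hQ₁S.trans h₁S) (hQ₂S.trans h₂S)
      have hcQ : ∀ a ∈ Q₁, ∀ b ∈ Q₂, a * b = b * a := fun a ha b hb =>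
        hcomm a (hQ₁S ha) b (hQ₂S hb)
      have hdec : ∀ {w : Ω × Ω}, w ∈ preimageAlong θ (Q₁ ⊔ Q₂) → w.1 ∈ Q₁ ∧ w.2 ∈ Q₂ := by
        intro w hw
        obtain ⟨hw₁, hw₂, hw₃⟩ := hpre' hw
        obtain ⟨a, ha, b, hb, e⟩ := mem_sup_commuting hcQ hw₃
        have h1 : a⁻¹ * w.1 = b * w.2⁻¹ := by
          have h0 : w.1 = a * b * w.2⁻¹ := by rw [← e, mul_inv_cancel_right]
          rw [h0]
          group
        have h2 : a⁻¹ * w.1 ∈ S₁ := S₁.mul_mem (S₁.inv_mem (hQ₁S ha)) hw₁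
        have h3 : a⁻¹ * w.1 ∈ S₂ := h1 ▸ S₂.mul_mem (hQ₂S hb) (S₂.inv_mem hw₂)
        refine ⟨?_, ?_⟩
        · have h4 := Q₁.mul_mem ha (hz₁ _ h2 h3)
          rwa [mul_inv_cancel_left] at h4
        · have h4 := Q₂.mul_mem (Q₂.inv_mem (hz₂ _ h3 h2)) hb
          rwa [h1, show (b * w.2⁻¹)⁻¹ * b = w.2 by group] at h4
      let M := preimageAlong θ (Q₁ ⊔ Q₂)
      let ψ : M →* Ω × Ω := MonoidHom.prod
        (ψ₁.comp (((MonoidHom.fst Ω Ω).comp M.subtype).codRestrict Q₁ fun w => (hdec w.2).1))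
        (ψ₂.comp (((MonoidHom.snd Ω Ω).comp M.subtype).codRestrict Q₂ fun w => (hdec w.2).2))
      have hleP₁ : (M.map (MonoidHom.fst Ω Ω)) ≤ Q₁ := by
        rintro _ ⟨w, hw, rfl⟩; exact (hdec hw).1
      have hleP₂ : (M.map (MonoidHom.snd Ω Ω)) ≤ Q₂ := by
        rintro _ ⟨w, hw, rfl⟩; exact (hdec hw).2
      have hψ : ψ ∈ D₀.Hom M := (hD M ψ).2 ⟨fun w hw => ⟨(hpre' hw).1, (hpre' hw).2.1⟩,
        _, restrict_mem F₁ hψ₁ hleP₁, _, restrict_mem F₂ hψ₂ hleP₂, fun w _ _ => rfl⟩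
      let m : ↥(Q₁ ⊔ Q₂) →* Ω :=
        { toFun := fun y => h y
          map_one' := by
            have h1 := hh 1 1
            rw [map_one, map_one, OneMemClass.coe_one, OneMemClass.coe_one, mul_one] at h1
            exact h1
          map_mul' := fun y y' => by
            obtain ⟨a, ha, b, hb, e⟩ := mem_sup_commuting hcQ y.2
            obtain ⟨c, hc, d, hd, e'⟩ := mem_sup_commuting hcQ y'.2
            have e'' : ((y * y' : ↥(Q₁ ⊔ Q₂)) : Ω) = (a * c) * (b * d) := by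
              rw [Subgroup.coe_mul, e, e', mul_assoc a b, ← mul_assoc b c d, ← hcQ c hc b hb]
              group
            show h _ = h _ * h _
            have h3 : h (a * c * (b * d)) = ψ₁ (⟨a, ha⟩ * ⟨c, hc⟩) * ψ₂ (⟨b, hb⟩ * ⟨d, hd⟩) :=
              hh (⟨a, ha⟩ * ⟨c, hc⟩) (⟨b, hb⟩ * ⟨d, hd⟩)
            rw [e'', e, e', h3, hh ⟨a, ha⟩ ⟨b, hb⟩, hh ⟨c, hc⟩ ⟨d, hd⟩, map_mul, map_mul]
            have hc' : ψ₁ ⟨c, hc⟩ * ψ₂ ⟨b, hb⟩ = ψ₂ ⟨b, hb⟩ * ψ₁ ⟨c, hc⟩ :=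
              hcomm _ (hom_mem F₁ hψ₁ _) _ (hom_mem F₂ hψ₂ _)
            rw [mul_assoc, ← mul_assoc (ψ₁ ⟨c, hc⟩), hc']
            group }
      refine ⟨m, (hhom _ m).2 ⟨hQ, ψ, hψ, fun w hw => ⟨(hpre' hw).1, (hpre' hw).2.1⟩,
        fun w => ⟨hom_mem F₁ hψ₁ _, hom_mem F₂ hψ₂ _⟩,
        fun w => by rw [hth]; exact (hpre' w.2).2.2, fun w => ?_⟩, fun _ => rfl⟩
      show h (θ _) = θ _
      rw [hth, hth]
      exact hh ⟨_, (hdec w.2).1⟩ ⟨_, (hdec w.2).2⟩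
    obtain ⟨k₁, hk₁, hk₁B, hk₁e⟩ := glue (A := S₁) (B := S₂) hcomm (fun _ _ h => h₁ _ h)
      (mor_of_hom hφ₁ fun x => (hg₁e x).symm) h₂S
      (fun z hz hz' => (hg₁e ⟨z, hz⟩).trans (hfix₁ ⟨z, hz⟩ hz')) hQ₁
      fun h hh => mk (ψ₂ := S₂.subtype) h hφ₁ (subtype_mem F₂ le_rfl) (fun a b => by
        rw [hh a a.2 b b.2, hg₁e]
        rfl) hQ₁ fun z hz _ => hz
    obtain ⟨k₂, hk₂, hk₂A, hk₂e⟩ := glue (A := S₂) (B := S₁)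
      (fun a ha b hb => (hcomm b hb a ha).symm) (fun _ _ h => h₂ _ h)
      (mor_of_hom hφ₂ fun x => (hg₂e x).symm) h₁S
      (fun z hz hz' => (hg₂e ⟨z, hz⟩).trans (hfix₂ ⟨z, hz⟩ hz')) hQ₂
      fun h hh => sup_comm S₁ P₂ ▸ mk (ψ₁ := S₁.subtype) h (subtype_mem F₁ le_rfl) hφ₂
        (fun a b => by
          rw [hcomm a a.2 b (hP₂ b.2), hh b b.2 a a.2, hg₂e,
            ← hcomm a a.2 _ (hom_mem F₂ hφ₂ b)]
          rfl) (fun z hz _ => hz) hQ₂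
    have hle₁ : P ⊔ S₂ ≤ P₁ ⊔ S₂ := sup_le (fun x hx => by
      obtain ⟨a, ha, b, hb, rfl⟩ := hsplit x (hP hx)
      exact Subgroup.mul_mem_sup ⟨(a, b), hpre ha hb hx, rfl⟩ hb) le_sup_right
    have hle₂ : P ⊔ S₁ ≤ P₂ ⊔ S₁ := sup_le (fun x hx => by
      obtain ⟨a, ha, b, hb, rfl⟩ := hsplit x (hP hx)
      rw [hcomm a ha b hb]
      exact Subgroup.mul_mem_sup ⟨(a, b), hpre ha hb hx, rfl⟩ ha) le_sup_right
    refine ⟨k₁, k₂, ⟨hk₁.restrict hle₁, hk₁B⟩, ⟨hk₂.restrict hle₂, hk₂A⟩, fun x hx => ?_⟩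
    obtain ⟨a, ha, b, hb, rfl⟩ := hsplit x (hP hx)
    have haP : a ∈ P₁ := ⟨(a, b), hpre ha hb hx, rfl⟩
    have hbP : b ∈ P₂ := ⟨(a, b), hpre ha hb hx, rfl⟩
    have hkb : k₂ b ∈ S₂ := by rw [hk₂e b hbP, hg₂e ⟨b, hbP⟩]; exact hom_mem F₂ hφ₂ _
    rw [hk₂.map_mul (Subgroup.mem_sup_right ha) (Subgroup.mem_sup_left hbP), hk₂A a ha,
      hk₁.map_mul (Subgroup.mem_sup_left haP) (Subgroup.mem_sup_right hkb), hk₁B _ hkb,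
      hk₁e a haP, hk₂e b hbP, hg₁e ⟨a, haP⟩, hg₂e ⟨b, hbP⟩, ← hfe ⟨a * b, hx⟩]
    exact he a b hx ha hb
  refine ⟨h₁S, h₂S, hs, fun P => Set.ext fun φ => ?_, fun P => Set.ext fun φ => ?_⟩
  · exact ⟨fun h => hone₁ (h.1.trans inf_le_right) h.2,
      fun h => ⟨(hom_le F₁ h).trans (e₁.ge), h₁ P h⟩⟩
  · exact ⟨fun h => hone₂ (h.1.trans inf_le_right) h.2,
      fun h => ⟨(hom_le F₂ h).trans (e₂.ge), h₂ P h⟩⟩

end CfsgLib.Comp89
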